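import Groth.Agent.S0404
import Groth.Agent.Flat2G.ProperDim
import Groth.Agent.CurvesC.ModVanish
import Mathlib.AlgebraicGeometry.Noetherian
import Mathlib.RingTheory.DiscreteValuationRing.Basic
import Mathlib.RingTheory.Localization.FractionRing

/-!
# The closed fibre of a flat proper scheme over a discrete valuation ring has dimension at most that of the
generic fibre, and the resulting vanishing of coherent cohomology.
-/

set_option autoImplicit false
universe u

open CategoryTheory CategoryTheory.Limits AlgebraicGeometry

namespace Groth.Agent.Models3.H44.FibDim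

variable (R : Type u) [CommRing R] [IsDomain R] [IsDiscreteValuationRing R]
  {C X : Scheme.{u}} (f : C ⟶ Spec (CommRingCat.of (FractionRing R))) (p : X ⟶ Spec (CommRingCat.of R))
  (g : C ⟶ X) (h : IsPullback g f p (Spec.map (CommRingCat.ofHom (algebraMap R (FractionRing R)))))

include h in
theorem topologicalKrullDim_closedFibre_le [Flat p] [IsProper p] (n : WithBot ℕ∞)
    (hC : topologicalKrullDim C ≤ n) :
    topologicalKrullDim (p.fiber (IsLocalRing.closedPoint R)) ≤ n := by
  by_contra hlt
  rw [not_le] at hlt
  have : IsLocallyNoetherian (Spec (CommRingCat.of R)) := inferInstance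
  have hfp : LocallyOfFinitePresentation p := LocallyOfFinitePresentation.iff_locallyOfFiniteType.2 inferInstance
  have hopen := Groth.Agent.S0404.result p n
  let x : Spec (CommRingCat.of (FractionRing R)) := IsLocalRing.closedPoint (FractionRing R)
  have hdim := Groth.Agent.Flat2G.ProperDim.topologicalKrullDim_field_point p
    (K := CommRingCat.of (FractionRing R)) (Field.toIsField (FractionRing R)) f g _ h x
  have hsp := Groth.Agent.CurvesC.ModVanish.specializes_closedPoint
    ((Spec.map (CommRingCat.ofHom (algebraMap R (FractionRing R)))) x)
    (IsLocalRing.closedPoint R) rfl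
  have hmem : ((Spec.map (CommRingCat.ofHom (algebraMap R (FractionRing R)))) x) ∈
      {s : Spec (CommRingCat.of R) | n < topologicalKrullDim (p.fiber s)} :=
    hsp.mem_open hopen hlt
  rw [Set.mem_setOf_eq, ← hdim] at hmem
  exact absurd hmem (not_lt.2 hC)

include h in
/-- Coherent cohomology vanishes above the dimension of the generic fibre. -/
theorem subsingleton_HH [Flat p] [IsProper p] (d : ℕ)
    (hC : topologicalKrullDim C ≤ d) (M : X.Modules) (hM : Coh.IsCoh M) (i : ℕ) (hi : d < i) :
    Subsingleton (Coh.HH X M i) :=
  Groth.Agent.CurvesC.ModVanish.subsingleton_HH_of_fiber p (IsLocalRing.closedPoint R) rfl d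
    (topologicalKrullDim_closedFibre_le R f p g h d hC) M hM i hi

end Groth.Agent.Models3.H44.FibDim
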