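import Mathlib.Algebra.BigOperators.Group.Finset.Basic
import Mathlib.Algebra.BigOperators.Ring.Finset
import Mathlib.Algebra.Order.BigOperators.Group.Finset
import Mathlib.Data.Fintype.Basic
import Mathlib.Tactic.Ring
import Mathlib.Tactic.Linarith

/-!
# The arithmetic of the adjunction/genus formula
-/

set_option autoImplicit false

namespace Groth.Agent.Models3.H44.GenusArith

variable {n : ℕ} (E : (Fin n → ℕ) → ℤ) (I : Fin n → Fin n → ℤ) (χ : Fin n → ℤ) (m : Fin n → ℕ)

/-- If `E (a + e_i) - E a = -(∑ a_j I_ij) + χ_i` along all chains inside the box `[0, m]`, then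
`2 E(a) = ∑ a_i (2 χ_i + I_ii) - ∑ a_i a_j I_ij` for all `a ≤ m`. -/
theorem two_mul_eq (hsymm : ∀ i j, I i j = I j i) (h0 : E 0 = 0)
    (hstep : ∀ (a : Fin n → ℕ) (i : Fin n), (∀ j, a j + (if j = i then 1 else 0) ≤ m j) →
      E (fun j => a j + if j = i then 1 else 0) - E a = -(∑ j, (a j : ℤ) * I i j) + χ i)
    (a : Fin n → ℕ) (ha : ∀ j, a j ≤ m j) :
    2 * E a = (∑ i, (a i : ℤ) * (2 * χ i + I i i)) - ∑ i, ∑ j, (a i : ℤ) * (a j : ℤ) * I i j := by
  induction hs : ∑ i, a i generalizing a with
  | zero =>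
    have h1 : ∀ i, a i = 0 := fun i => (Finset.sum_eq_zero_iff.1 hs) i (Finset.mem_univ i)
    obtain rfl : a = 0 := funext h1
    simp [h0]
  | succ N ih =>
    have hne : ∃ i, a i ≠ 0 := by
      by_contra hcon
      push Not at hcon
      simp [hcon] at hs
    obtain ⟨i, hi⟩ := hne
    let b : Fin n → ℕ := fun j => a j - (if j = i then 1 else 0)
    have hab : ∀ j, b j + (if j = i then 1 else 0) = a j := by
      intro j
      by_cases hj : j = i
      · subst hj
        simp only [b, if_true]
        omega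
      · simp [b, hj]
    have hab' : (fun j => b j + if j = i then 1 else 0) = a := funext hab
    have hsb : ∑ j, b j = N := by
      have h1 : ∑ j, a j = ∑ j, b j + 1 := by
        rw [← hab', Finset.sum_add_distrib]
        simp
      omega
    have h2 := ih b (fun j => by have := hab j; have := ha j; omega) hsb
    have h3 := hstep b i (fun j => by rw [hab j]; exact ha j)
    rw [hab'] at h3
    have hcast : ∀ j, (a j : ℤ) = (b j : ℤ) + (if j = i then 1 else 0) := by
      intro j
      rw [← hab j]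
      push_cast
      split_ifs <;> simp
    have e1 : ∑ j, (a j : ℤ) * (2 * χ j + I j j) =
        (∑ j, (b j : ℤ) * (2 * χ j + I j j)) + (2 * χ i + I i i) := by
      simp only [hcast, add_mul, Finset.sum_add_distrib, ite_mul, one_mul, zero_mul,
        Finset.sum_ite_eq', Finset.mem_univ, if_true]
    have e2 : ∑ k, ∑ j, (a k : ℤ) * (a j : ℤ) * I k j =
        (∑ k, ∑ j, (b k : ℤ) * (b j : ℤ) * I k j) + 2 * (∑ j, (b j : ℤ) * I i j) + I i i := by
      have e3 : ∀ k, ∑ j, (a k : ℤ) * (a j : ℤ) * I k j =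
          (∑ j, (b k : ℤ) * (b j : ℤ) * I k j) + (b k : ℤ) * I k i +
          (if k = i then (∑ j, (b j : ℤ) * I k j) + I k i else 0) := by
        intro k
        have e4 : ∀ j, (a k : ℤ) * (a j : ℤ) * I k j =
            (b k : ℤ) * (b j : ℤ) * I k j + (if j = i then (b k : ℤ) * I k j else 0) +
            (if k = i then ((b j : ℤ) * I k j + (if j = i then I k j else 0)) else 0) := by
          intro j
          rw [hcast k, hcast j]
          split_ifs <;> ring
        simp only [e4, Finset.sum_add_distrib, Finset.sum_ite_eq', Finset.mem_univ, if_true]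
        by_cases hk : k = i
        · simp only [hk, if_true, Finset.sum_add_distrib, Finset.sum_ite_eq', Finset.mem_univ]
        · simp only [hk, if_false, Finset.sum_const_zero]
      simp only [e3, Finset.sum_add_distrib, Finset.sum_ite_eq', Finset.mem_univ, if_true]
      have e5 : ∑ k, (b k : ℤ) * I k i = ∑ j, (b j : ℤ) * I i j :=
        Finset.sum_congr rfl fun k _ => by rw [hsymm k i]
      rw [e5]
      ring
    rw [e1, e2]
    linarith

/-- The genus formula. -/
theorem genus_formula (g : ℤ) (hsymm : ∀ i j, I i j = I j i) (h0 : E 0 = 0)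
    (hstep : ∀ (a : Fin n → ℕ) (i : Fin n), (∀ j, a j + (if j = i then 1 else 0) ≤ m j) →
      E (fun j => a j + if j = i then 1 else 0) - E a = -(∑ j, (a j : ℤ) * I i j) + χ i)
    (hsum : ∀ j, ∑ i, (m i : ℤ) * I i j = 0) (hm : E m = 1 - g) :
    2 * g = 2 + ∑ i, (m i : ℤ) * (2 * (- χ i) - I i i) := by
  have h1 := two_mul_eq E I χ m hsymm h0 hstep m (fun _ => le_rfl)
  have h2 : ∑ i, ∑ j, (m i : ℤ) * (m j : ℤ) * I i j = 0 := by
    rw [Finset.sum_comm]
    refine Finset.sum_eq_zero fun j _ => ?_
    have := hsum j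
    calc ∑ i, (m i : ℤ) * (m j : ℤ) * I i j = (m j : ℤ) * ∑ i, (m i : ℤ) * I i j := by
          rw [Finset.mul_sum]
          exact Finset.sum_congr rfl fun i _ => by ring
      _ = 0 := by rw [this, mul_zero]
  rw [h2, hm] at h1
  have h3 : ∑ i, (m i : ℤ) * (2 * (- χ i) - I i i) = - ∑ i, (m i : ℤ) * (2 * χ i + I i i) := by
    rw [← Finset.sum_neg_distrib]
    exact Finset.sum_congr rfl fun i _ => by ring
  rw [h3]
  linarith

end Groth.Agent.Models3.H44.GenusArith
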