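import Groth.Prelude.Def_ModelsG
import Groth.Agent.Ega3B.HLes
import Mathlib.AlgebraicGeometry.Limits

/-!
# `O_X / O_X = 0`
-/

set_option autoImplicit false
universe u

open CategoryTheory CategoryTheory.Limits AlgebraicGeometry Opposite TopologicalSpace

namespace Groth.Agent.Models3.H44.QuotTop

variable {X : Scheme.{u}}

theorem isZero_quotMod_top : IsZero (ClSub.quotMod (⊤ : X.IdealSheafData)) := by
  rw [IsZero.iff_id_eq_zero]
  apply Scheme.Modules.hom_ext
  intro U
  ext a
  have hE : IsEmpty (⊤ : X.IdealSheafData).subscheme := inferInstance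
  have hs : Subsingleton Γ((⊤ : X.IdealSheafData).subscheme,
      (⊤ : X.IdealSheafData).subschemeι ⁻¹ᵁ U) :=
    inferInstance
  exact hs.elim _ _

theorem subsingleton_HH (i : ℕ) : Subsingleton (Coh.HH X (ClSub.quotMod (1 : X.IdealSheafData)) i) := by
  rw [Scheme.IdealSheafData.one_eq_top]
  exact Sheaf.subsingleton_H_of_isZero
    ((Groth.Agent.Ega3B.HLes.toAbF X).map_isZero isZero_quotMod_top) i

theorem lengthH_one (R : Type u) [CommRing R] [IsDomain R] [IsDiscreteValuationRing R]
    (X : Over (Spec (CommRingCat.of R))) (i : ℕ) :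
    Models.lengthH R X (ClSub.quotMod (1 : X.left.IdealSheafData)) i = 0 := by
  have := subsingleton_HH (X := X.left) i
  rw [Models.lengthH, Module.length_eq_zero]
  rfl

end Groth.Agent.Models3.H44.QuotTop
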